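import Cfsg.Agent.H199.PslGraphField

/-!
# An involutory field automorphism of `PSL_n(F)`, `n ≥ 3`, inverts an odd order subgroup with at least 9 elements (helper750)
-/

set_option autoImplicit false
set_option linter.unusedSectionVars false

namespace Cfsg.Agent.H750.R3

open Matrix
open Cfsg.Agent.ClassicalGeometry.AutPSL.Root
open Cfsg.Agent.ClassicalGeometry.AutPSL.Auto
open Cfsg.Agent.H199.PslAut

section general

variable {F : Type*} [Field F] {n : ℕ}

/-- the square of a semilinear automorphism -/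
theorem sq_eq (A : GL (Fin n) F) (σ : F ≃+* F) :
    Psi n F A * phi n F σ * (Psi n F A * phi n F σ) = Psi n F (A * mapGL σ A) * phi n F (σ * σ) := by
  calc Psi n F A * phi n F σ * (Psi n F A * phi n F σ)
      = Psi n F A * (phi n F σ * Psi n F A) * phi n F σ := by group
    _ = _ := by rw [phi_mul_Psi, map_mul, map_mul]; group

theorem comp_smul (σ : F ≃+* F) (a : F) (w : Fin n → F) : (fun i => σ ((a • w) i)) = σ a • fun i => σ (w i) := by
  funext i
  simp

theorem comp_add (σ : F ≃+* F) (w w' : Fin n → F) :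
    (fun i => σ ((w + w') i)) = (fun i => σ (w i)) + fun i => σ (w' i) := by
  funext i
  simp

theorem comp_mulVec (σ : F ≃+* F) (M : Matrix (Fin n) (Fin n) F) (v : Fin n → F) :
    (fun i => σ ((M *ᵥ v) i)) = (M.map σ) *ᵥ (fun i => σ (v i)) := by
  funext i
  simp [mulVec, dotProduct, map_sum, Matrix.map_apply]

theorem comp_vecMul (σ : F ≃+* F) (M : Matrix (Fin n) (Fin n) F) (v : Fin n → F) :
    (fun i => σ ((v ᵥ* M) i)) = (fun i => σ (v i)) ᵥ* (M.map σ) := by
  funext i
  simp [vecMul, dotProduct, map_sum, Matrix.map_apply]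

theorem comp_dot (σ : F ≃+* F) (v w : Fin n → F) :
    σ (v ⬝ᵥ w) = (fun i => σ (v i)) ⬝ᵥ (fun i => σ (w i)) := by
  simp [dotProduct, map_sum]

theorem fld_tr (σ : F ≃+* F) (a φ : Fin n → F) (h : φ ⬝ᵥ a = 0) :
    fld σ (tr a φ h) = tr (fun i => σ (a i)) (fun i => σ (φ i)) (by rw [← comp_dot, h, map_zero]) := by
  apply Subtype.ext
  ext i j
  rw [coe_fld_apply, coe_tr, coe_tr, Matrix.add_apply, Matrix.add_apply, map_add, vecMulVec_apply, vecMulVec_apply,
    map_mul]
  congr 1
  by_cases hij : i = j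
  · subst hij
    simp
  · simp [Matrix.one_apply_ne hij]

/-- a semilinear involution on row or column vectors fixes a nonzero vector -/
theorem exists_fixed {V : Type*} [AddCommGroup V] [Module F V] {σ : F ≃+* F} {ε : F} (hε : ε ≠ 0) (hσε : σ ε = -ε)
    (z : V → V) (hadd : ∀ v w, z (v + w) = z v + z w) (hsmul : ∀ (a : F) v, z (a • v) = σ a • z v)
    (hzz : ∀ v, z (z v) = v) {μ : V} (hμ : μ ≠ 0) : ∃ l : V, l ≠ 0 ∧ z l = l := by
  by_cases h : μ + z μ = 0
  · refine ⟨ε • μ, smul_ne_zero hε hμ, ?_⟩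
    rw [hsmul, hσε, eq_neg_of_add_eq_zero_right h, smul_neg, neg_smul, neg_neg]
  · exact ⟨μ + z μ, h, by rw [hadd, hzz, add_comm]⟩

end general

section finite

variable {F : Type*} [Field F] [Finite F] {n : ℕ}

theorem nine_le {σ : F ≃+* F} (hσ : σ ≠ 1) (hσ2 : σ * σ = 1) (hodd : Odd (Nat.card F)) : 9 ≤ Nat.card F := by
  have ho : orderOf σ = 2 := orderOf_eq_prime (by rw [pow_two, hσ2]) hσ
  have _ : Fintype F := Fintype.ofFinite F
  obtain ⟨K, -, hK⟩ := Cfsg.Agent.H199.PslField.card_fix σ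
  rw [ho] at hK
  have h1 : 1 < Nat.card K := Finite.one_lt_card
  have h2 : Nat.card K ≠ 2 := by
    intro h
    rw [← hK, h] at hodd
    exact absurd hodd (by decide)
  have h3 : 3 ≤ Nat.card K := by omega
  rw [← hK]
  nlinarith

theorem exists_nine (hn : 3 ≤ n) (hodd : Odd (Nat.card F)) {A : GL (Fin n) F} {σ : F ≃+* F} (hσ : σ ≠ 1)
    (h : Psi n F A * phi n F σ * (Psi n F A * phi n F σ) = 1) :
    ∃ R : Subgroup (Matrix.ProjectiveSpecialLinearGroup (Fin n) F), Odd (Nat.card R) ∧ 9 ≤ Nat.card R ∧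
      ∀ c ∈ R, (Psi n F A * phi n F σ) c = c⁻¹ := by
  classical
  have _ : Fintype F := Fintype.ofFinite F
  rw [sq_eq] at h
  obtain ⟨⟨c, hc⟩, hσ2⟩ := Psi_phi_eq (by omega) (τ := 1) (h.trans (map_one _).symm)
  have hss : ∀ a, σ (σ a) = a := fun a => RingEquiv.congr_fun hσ2 a
  -- `c` is fixed
  have hcm : (A : Matrix (Fin n) (Fin n) F) * ((A : Matrix (Fin n) (Fin n) F).map σ) = scalar (Fin n) (c : F) := by
    have := congrArg (fun M : GL (Fin n) F => (M : Matrix (Fin n) (Fin n) F)) hc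
    exact this
  have hcc : σ (c : F) = c := by
    have h1 : mapGL σ A * A = scal n F c := by
      have h2 : A * mapGL σ A * A = A * scal n F c := by
        rw [hc]
        apply Units.ext
        change scalar (Fin n) (c : F) * (A : Matrix (Fin n) (Fin n) F) = (A : Matrix (Fin n) (Fin n) F) * scalar (Fin n) (c : F)
        exact Matrix.scalar_comm (c : F) (fun r => Commute.all _ r) _
      exact mul_left_cancel (by rw [← mul_assoc]; exact h2)
    have h3 : mapGL σ (A * mapGL σ A) = mapGL σ A * A := by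
      rw [map_mul]
      congr 1
      apply Units.ext
      ext i j
      exact hss _
    rw [h1, hc] at h3
    have h4 := congrArg (fun M : GL (Fin n) F => (M : Matrix (Fin n) (Fin n) F) ⟨0, by omega⟩ ⟨0, by omega⟩) h3
    have h5 : σ ((scalar (Fin n) (c : F)) ⟨0, by omega⟩ ⟨0, by omega⟩) = (scalar (Fin n) (c : F)) ⟨0, by omega⟩ ⟨0, by omega⟩ := h4
    simpa [Matrix.scalar_apply] using h5
  have hσ' : (σ : F →+* F) ≠ RingHom.id F := by
    intro h1
    apply hσ
    ext a
    exact RingHom.congr_fun h1 a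
  obtain ⟨u, hu⟩ := Cfsg.Agent.ClassicalGeometry.InvolutiveNorm.exists_mul_sigma_eq hσ' hss hcc
  have hu' : u * σ u = c := hu
  have hc0 : (c : F) ≠ 0 := c.ne_zero
  have hu0 : u ≠ 0 := by
    rintro rfl
    rw [zero_mul] at hu'
    exact hc0 hu'.symm
  have hsu0 : σ u ≠ 0 := by
    intro h1
    rw [h1, mul_zero] at hu'
    exact hc0 hu'.symm
  obtain ⟨a, ha⟩ := Cfsg.Agent.ClassicalGeometry.InvolutiveNorm.exists_sigma_ne hσ'
  have ha' : σ a ≠ a := ha
  set ε : F := a - σ a with hεd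
  have hε : ε ≠ 0 := sub_ne_zero.2 (Ne.symm ha')
  have hσε : σ ε = -ε := by rw [hεd, map_sub, hss]; ring
  let M : Matrix (Fin n) (Fin n) F := A
  have hM : ∀ w : Fin n → F, M *ᵥ (M.map σ *ᵥ w) = (c : F) • w := by
    intro w
    rw [mulVec_mulVec, hcm, Matrix.scalar_apply, Matrix.diagonal_const_mulVec]
  have hM' : ∀ w : Fin n → F, (w ᵥ* M) ᵥ* M.map σ = (c : F) • w := by
    intro w
    rw [vecMul_vecMul, hcm, Matrix.scalar_apply]
    funext i
    rw [vecMul_diagonal, Pi.smul_apply, smul_eq_mul, mul_comm]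
  have hmm : (M.map σ).map σ = M := by
    ext i j
    exact hss _
  -- the involution on column vectors
  let y : (Fin n → F) → (Fin n → F) := fun w => u⁻¹ • (M *ᵥ fun i => σ (w i))
  have hyadd : ∀ v w, y (v + w) = y v + y w := by
    intro v w
    change u⁻¹ • (M *ᵥ fun i => σ ((v + w) i)) = _
    rw [comp_add, mulVec_add, smul_add]
  have hysmul : ∀ (a : F) v, y (a • v) = σ a • y v := by
    intro a v
    change u⁻¹ • (M *ᵥ fun i => σ ((a • v) i)) = _
    rw [comp_smul, mulVec_smul, smul_comm]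
  have hyy : ∀ v, y (y v) = v := by
    intro v
    change u⁻¹ • (M *ᵥ fun i => σ ((u⁻¹ • (M *ᵥ fun i => σ (v i))) i)) = v
    rw [comp_smul, comp_mulVec, mulVec_smul, hM]
    simp only [hss]
    rw [smul_smul, smul_smul, ← hu', map_inv₀]
    have : u⁻¹ * (σ u)⁻¹ * (u * σ u) = 1 := by field_simp
    rw [← mul_assoc] at this ⊢
    rw [this, one_smul]
  -- the involution on row vectors
  let z : (Fin n → F) → (Fin n → F) := fun w => (σ u)⁻¹ • ((fun i => σ (w i)) ᵥ* M.map σ)
  have hzadd : ∀ v w, z (v + w) = z v + z w := by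
    intro v w
    change (σ u)⁻¹ • ((fun i => σ ((v + w) i)) ᵥ* M.map σ) = _
    rw [comp_add, add_vecMul, smul_add]
  have hzsmul : ∀ (a : F) v, z (a • v) = σ a • z v := by
    intro a v
    change (σ u)⁻¹ • ((fun i => σ ((a • v) i)) ᵥ* M.map σ) = _
    rw [comp_smul, smul_vecMul, smul_comm]
  have hzz : ∀ v, z (z v) = v := by
    intro v
    change (σ u)⁻¹ • ((fun i => σ (((σ u)⁻¹ • ((fun i => σ (v i)) ᵥ* M.map σ)) i)) ᵥ* M.map σ) = v
    rw [comp_smul, comp_vecMul, hmm, smul_vecMul, map_inv₀, hss]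
    simp only [hss]
    rw [hM', smul_smul, smul_smul, ← hu']
    have : (σ u)⁻¹ * u⁻¹ * (u * σ u) = 1 := by field_simp
    rw [← mul_assoc] at this ⊢
    rw [this, one_smul]
  have hne : Nonempty (Fin n) := ⟨⟨0, by omega⟩⟩
  obtain ⟨μ, hμ⟩ := exists_ne (0 : Fin n → F)
  obtain ⟨l, hl0, hl⟩ := exists_fixed hε hσε z hzadd hzsmul hzz hμ
  have hlM : l ᵥ* M = u • fun i => σ (l i) := by
    have h1 : (fun i => σ (z l i)) = fun i => σ (l i) := by rw [hl]
    have h2 : (fun i => σ (z l i)) = u⁻¹ • (l ᵥ* M) := by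
      change (fun i => σ (((σ u)⁻¹ • ((fun i => σ (l i)) ᵥ* M.map σ)) i)) = _
      rw [comp_smul, comp_vecMul, hmm, map_inv₀, hss]
      simp only [hss]
    rw [← h1, h2, smul_smul, mul_inv_cancel₀ hu0, one_smul]
  have hly : ∀ w, l ⬝ᵥ y w = σ (l ⬝ᵥ w) := by
    intro w
    change l ⬝ᵥ (u⁻¹ • (M *ᵥ fun i => σ (w i))) = _
    rw [dotProduct_smul, dotProduct_mulVec, hlM, smul_dotProduct, comp_dot, smul_smul, inv_mul_cancel₀ hu0, one_smul]
  -- the additive group
  let W : AddSubgroup (Fin n → F) :=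
    { carrier := {w | y w = w ∧ l ⬝ᵥ w = 0}
      add_mem' := by
        rintro v w ⟨h1, h2⟩ ⟨h1', h2'⟩
        exact ⟨by rw [hyadd, h1, h1'], by rw [dotProduct_add, h2, h2', add_zero]⟩
      zero_mem' := ⟨by
        have := hysmul 0 0
        rwa [zero_smul, map_zero, zero_smul] at this, dotProduct_zero _⟩
      neg_mem' := by
        rintro v ⟨h1, h2⟩
        refine ⟨?_, by rw [dotProduct_neg, h2, neg_zero]⟩
        have := hysmul (-1) v
        rwa [neg_one_smul, map_neg, map_one, neg_one_smul, h1] at this }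
  have hq := nine_le hσ hσ2 hodd
  have hk : 81 ≤ Nat.card {w : Fin n → F // l ⬝ᵥ w = 0} := by
    obtain ⟨j, hj⟩ := Function.ne_iff.1 hl0
    have hj' : l j ≠ 0 := hj
    have h1 : Nat.card (Fin n → F) ≤ Nat.card ({w : Fin n → F // l ⬝ᵥ w = 0} × F) := by
      refine Nat.card_le_card_of_injective (fun w => (⟨w - ((l ⬝ᵥ w) / l j) • Pi.single j 1, ?_⟩, l ⬝ᵥ w)) ?_
      · rw [dotProduct_sub, dotProduct_smul, dotProduct_single, smul_eq_mul, mul_one, div_mul_cancel₀ _ hj', sub_self]
      · intro w w' hw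
        have h2 := congrArg Prod.snd hw
        have h3 := congrArg (fun p : {w : Fin n → F // l ⬝ᵥ w = 0} × F => (p.1 : Fin n → F)) hw
        simp only at h2 h3
        rw [h2] at h3
        exact sub_left_injective h3
    rw [Nat.card_prod, Nat.card_fun, Nat.card_eq_fintype_card (α := Fin n), Fintype.card_fin] at h1
    have h2 : Nat.card F ^ 3 ≤ Nat.card F ^ n := Nat.pow_le_pow_right (by omega) hn
    by_contra hlt
    push Not at hlt
    have h3 : Nat.card F ^ 3 ≤ Nat.card {w : Fin n → F // l ⬝ᵥ w = 0} * Nat.card F := h2.trans h1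
    have h4 : Nat.card F ^ 2 ≤ Nat.card {w : Fin n → F // l ⬝ᵥ w = 0} := by
      refine Nat.le_of_mul_le_mul_right (c := Nat.card F) ?_ (by omega)
      rw [← pow_succ]
      exact h3
    nlinarith
  have hW : 9 ≤ Nat.card W := by
    have h1 : Nat.card {w : Fin n → F // l ⬝ᵥ w = 0} ≤ Nat.card (W × W) := by
      refine Nat.card_le_card_of_injective (fun w => (⟨w.1 + y w.1, ?_, ?_⟩, ⟨ε⁻¹ • (w.1 - y w.1), ?_, ?_⟩)) ?_
      · rw [hyadd, hyy, add_comm]
      · rw [dotProduct_add, hly, w.2, map_zero, add_zero]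
      · have h2 : w.1 - y w.1 = w.1 + (-1 : F) • y w.1 := by rw [neg_one_smul, sub_eq_add_neg]
        rw [hysmul, h2, hyadd, hysmul, hyy, map_inv₀, hσε, map_neg, map_one]
        rw [inv_neg, neg_smul, ← smul_neg]
        congr 1
        module
      · rw [dotProduct_smul, dotProduct_sub, hly, w.2, map_zero, sub_zero, smul_zero]
      · intro w w' hw
        have h2 := congrArg (fun p : W × W => (p.1 : Fin n → F)) hw
        have h3 := congrArg (fun p : W × W => (p.2 : Fin n → F)) hw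
        simp only at h2 h3
        have h4 : w.1 - y w.1 = w'.1 - y w'.1 := by
          have := congrArg (fun v => ε • v) h3
          simpa only [smul_smul, mul_inv_cancel₀ hε, one_smul] using this
        have h5 : (2 : F) • w.1 = (2 : F) • w'.1 := by
          have e1 : (2 : F) • w.1 = (w.1 + y w.1) + (w.1 - y w.1) := by module
          have e2 : (2 : F) • w'.1 = (w'.1 + y w'.1) + (w'.1 - y w'.1) := by module
          rw [e1, e2, h2, h4]
        have h20 : (2 : F) ≠ 0 := by
          intro h0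
          have hc2 : ringChar F = 2 := by
            have h6 : ringChar F ∣ 2 := ringChar.dvd (by exact_mod_cast h0)
            rcases (Nat.dvd_prime Nat.prime_two).1 h6 with h7 | h7
            · exact absurd h7 CharP.ringChar_ne_one
            · exact h7
          have h8 := FiniteField.even_card_iff_char_two.1 hc2
          rw [Nat.card_eq_fintype_card] at hodd
          rw [Nat.odd_iff] at hodd
          omega
        exact Subtype.ext (smul_right_injective _ h20 h5)
    rw [Nat.card_prod] at h1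
    by_contra hlt
    push Not at hlt
    have h2 : Nat.card W ≤ 8 := by omega
    have h3 : Nat.card W * Nat.card W ≤ 8 * 8 := Nat.mul_le_mul h2 h2
    omega
  have hWodd : Odd (Nat.card W) := by
    have h1 : Nat.card W ∣ Nat.card (Fin n → F) := AddSubgroup.card_addSubgroup_dvd_card W
    rw [Nat.card_fun] at h1
    exact Odd.of_dvd_nat (hodd.pow) h1
  have hWl : ∀ w : W, l ⬝ᵥ (ε • (w : Fin n → F)) = 0 := fun w => by rw [dotProduct_smul, w.2.2, smul_zero]
  let f : Multiplicative W →* Matrix.ProjectiveSpecialLinearGroup (Fin n) F :=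
    MonoidHom.mk' (fun w => pr (tr (ε • ((w.toAdd : W) : Fin n → F)) l (hWl w.toAdd))) (by
      intro v w
      rw [← map_mul, tr_mul_same_axis]
      congr 1
      apply tr_eq_iff.2
      congr 1
      rw [← smul_add]
      rfl)
  have hf : Function.Injective f := by
    intro v w hvw
    have h1 := tr_eq_iff.1 (tr_eq_of_pr_eq (show pr (tr (ε • ((v.toAdd : W) : Fin n → F)) l (hWl v.toAdd)) =
      pr (tr (ε • ((w.toAdd : W) : Fin n → F)) l (hWl w.toAdd)) from hvw))
    obtain ⟨j, hj⟩ := Function.ne_iff.1 hl0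
    have hj' : l j ≠ 0 := hj
    apply Multiplicative.toAdd.injective
    apply Subtype.ext
    funext i
    have h2 := congrFun (congrFun h1 i) j
    rw [vecMulVec_apply, vecMulVec_apply, Pi.smul_apply, Pi.smul_apply, smul_eq_mul, smul_eq_mul] at h2
    exact mul_left_cancel₀ hε (mul_right_cancel₀ hj' h2)
  have hcard : Nat.card f.range = Nat.card W := by
    rw [← Nat.card_congr (MonoidHom.ofInjective hf).toEquiv]
    exact Nat.card_congr Multiplicative.toAdd
  refine ⟨f.range, by rw [hcard]; exact hWodd, by rw [hcard]; exact hW, ?_⟩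
  rintro _ ⟨w, rfl⟩
  obtain ⟨w, hw1, hw2⟩ := w
  rw [eq_inv_iff_mul_eq_one]
  set w' : Multiplicative W := Multiplicative.ofAdd (⟨w, hw1, hw2⟩ : W) with hw'
  change (Psi n F A) (phi n F σ (pr (tr (ε • w) l _))) * pr (tr (ε • w) l _) = 1
  rw [phi_pr, Psi_pr, ← map_mul, fld_tr, cj_tr]
  have e1 : (A : Matrix (Fin n) (Fin n) F) *ᵥ (fun i => σ ((ε • w) i)) = -(ε * u) • w := by
    rw [comp_smul, mulVec_smul, hσε]
    have h2 : M *ᵥ (fun i => σ (w i)) = u • w := by
      have h3 : u • y w = u • w := by rw [hw1]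
      rw [← h3]
      change _ = u • (u⁻¹ • (M *ᵥ fun i => σ (w i)))
      rw [smul_smul, mul_inv_cancel₀ hu0, one_smul]
    change -ε • (M *ᵥ (fun i => σ (w i))) = _
    rw [h2, smul_smul]
    congr 1
    ring
  have e2 : (fun i => σ (l i)) ᵥ* ((A⁻¹ : GL (Fin n) F) : Matrix (Fin n) (Fin n) F) = u⁻¹ • l := by
    have h2 : (fun i => σ (l i)) = u⁻¹ • (l ᵥ* M) := by
      rw [hlM, smul_smul, inv_mul_cancel₀ hu0, one_smul]
    rw [h2, smul_vecMul, vecMul_vecMul]
    congr 1
    have h3 : M * ((A⁻¹ : GL (Fin n) F) : Matrix (Fin n) (Fin n) F) = 1 := by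
      change (A : Matrix (Fin n) (Fin n) F) * ((A⁻¹ : GL (Fin n) F) : Matrix (Fin n) (Fin n) F) = 1
      rw [← Units.val_mul, mul_inv_cancel, Units.val_one]
    rw [h3, vecMul_one]
  have hl1 : l ⬝ᵥ ((-ε) • w) = 0 := by rw [dotProduct_smul, hw2, smul_zero]
  have e3 : tr ((A : Matrix (Fin n) (Fin n) F) *ᵥ (fun i => σ ((ε • w) i)))
      ((fun i => σ (l i)) ᵥ* ((A⁻¹ : GL (Fin n) F) : Matrix (Fin n) (Fin n) F)) (by
        rw [vecMul_inv_dotProduct, ← comp_dot, dotProduct_smul, hw2, smul_zero, map_zero]) = tr ((-ε) • w) l hl1 := by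
    apply tr_eq_iff.2
    rw [e1, e2]
    ext i j
    simp only [vecMulVec_apply, Pi.smul_apply, smul_eq_mul]
    field_simp
  rw [e3, tr_mul_same_axis]
  have e4 : tr ((-ε) • w + ε • w) l (by rw [dotProduct_add, hl1, dotProduct_smul, hw2, smul_zero, add_zero]) = 1 := by
    apply sl_ext
    intro x
    rw [tr_mulVec, neg_smul, neg_add_cancel, smul_zero, add_zero, Matrix.SpecialLinearGroup.coe_one, one_mulVec]
  rw [e4, map_one]

end finite

end Cfsg.Agent.H750.R3
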