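import Cfsg.Agent.H750.R3.Psl
import Cfsg.Agent.H597.MeetPSL2
import Cfsg.Agent.ClassicalGeometry.PSL2Solvable

/-!
# `Row3 2 (PSL_2(F))`, `|F| ≥ 5` odd (helper750, project S5761)
-/

set_option autoImplicit false
set_option linter.unusedSectionVars false

namespace Cfsg.Agent.H750.R3

open Matrix Cfsg.Agent.H233.B3
open Cfsg.Agent.ClassicalGeometry.AutPSL.Root
open Cfsg.Agent.ClassicalGeometry.AutPSL.Auto
open Cfsg.Agent.H199.PslAut

section gen

variable {F : Type*} [Field F] {n : ℕ}

theorem fixed_of_sq (hn : 0 < n) {A : GL (Fin n) F} {σ : F ≃+* F} {c : Fˣ} (hc : A * mapGL σ A = scal n F c)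
    (hσ2 : σ * σ = 1) : σ (c : F) = c := by
  have hss : ∀ a, σ (σ a) = a := fun a => RingEquiv.congr_fun hσ2 a
  have h1 : mapGL σ A * A = scal n F c := by
    have h2 : A * mapGL σ A * A = A * scal n F c := by
      rw [hc]
      apply Units.ext
      change scalar (Fin n) (c : F) * (A : Matrix (Fin n) (Fin n) F) = (A : Matrix (Fin n) (Fin n) F) * scalar (Fin n) (c : F)
      exact Matrix.scalar_comm (c : F) (fun r => Commute.all _ r) _
    exact mul_left_cancel (by rw [← mul_assoc]; exact h2)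
  have h3 : mapGL σ (A * mapGL σ A) = mapGL σ A * A := by
    rw [map_mul]
    congr 1
    apply Units.ext
    ext i j
    exact hss _
  rw [h1, hc] at h3
  have h4 := congrArg (fun M : GL (Fin n) F => (M : Matrix (Fin n) (Fin n) F) ⟨0, hn⟩ ⟨0, hn⟩) h3
  have h5 : σ ((scalar (Fin n) (c : F)) ⟨0, hn⟩ ⟨0, hn⟩) = (scalar (Fin n) (c : F)) ⟨0, hn⟩ ⟨0, hn⟩ := h4
  simpa [Matrix.scalar_apply] using h5

theorem det_mapGL (A : GL (Fin n) F) (σ : F ≃+* F) :
    Matrix.GeneralLinearGroup.det (mapGL σ A) = Units.map (σ : F →* F) (Matrix.GeneralLinearGroup.det A) := by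
  apply Units.ext
  change ((A : Matrix (Fin n) (Fin n) F).map (σ : F →+* F)).det = σ ((A : Matrix (Fin n) (Fin n) F).det)
  rw [← RingHom.mapMatrix_apply, ← RingHom.map_det]
  rfl

/-- elements with square determinant induce inner automorphisms -/
theorem inner_of_sq [Fintype F] {g : GL (Fin 2) F} (h : IsSquare (Matrix.GeneralLinearGroup.det g)) :
    Psi 2 F g ∈ (MulAut.conj : ProjectiveSpecialLinearGroup (Fin 2) F →* _).range := by
  obtain ⟨u, hu⟩ := h
  have h1 : Matrix.GeneralLinearGroup.det (scal 2 F u⁻¹ * g) = 1 := by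
    rw [map_mul, Cfsg.Agent.H199.PslField.det_scal, hu]
    group
  let s : SpecialLinearGroup (Fin 2) F := ⟨((scal 2 F u⁻¹ * g : GL (Fin 2) F) : Matrix (Fin 2) (Fin 2) F),
    congrArg Units.val h1⟩
  refine ⟨pr s, ?_⟩
  rw [← Psi_coe]
  have h2 : (s : GL (Fin 2) F) = scal 2 F u⁻¹ * g := Units.ext rfl
  rw [h2, map_mul, Psi_scal, one_mul]

end gen

section fin

variable {F : Type*} [Field F] [Fintype F]

theorem ringChar_ne_two (hF : Odd (Fintype.card F)) : ringChar F ≠ 2 := by
  intro h
  have := FiniteField.even_card_iff_char_two.1 h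
  rw [Nat.odd_iff] at hF
  omega

/-- the norm of a unit is a square -/
theorem norm_sq {q : ℕ} (hq : Fintype.card F = q ^ 2) (hF : Odd (Fintype.card F)) {σ : F ≃+* F} (hσ : orderOf σ = 2)
    (a : Fˣ) : IsSquare (a * Units.map (σ : F →* F) a) := by
  have h1 : Units.map (σ : F →* F) a = a ^ q := by
    apply Units.ext
    exact Cfsg.Agent.H199.PslGraphField.eq_pow hq hσ _
  have hqo : Odd q := by
    rw [hq, Nat.odd_pow_iff (by norm_num)] at hF
    exact hF
  obtain ⟨k, hk⟩ := hqo
  refine ⟨a ^ (k + 1), ?_⟩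
  rw [h1, ← pow_succ', ← pow_add, hk]
  congr 1
  omega

/-- `a σ(a) = c²` with `c` fixed forces `a` to be a square -/
theorem sq_of_norm {q : ℕ} (hq : Fintype.card F = q ^ 2) (hF : Odd (Fintype.card F)) {σ : F ≃+* F} (hσ : orderOf σ = 2)
    {a c : Fˣ} (hc : Units.map (σ : F →* F) c = c) (h : a * Units.map (σ : F →* F) a = c ^ 2) : IsSquare a := by
  have h1 : ∀ a : Fˣ, Units.map (σ : F →* F) a = a ^ q := by
    intro a
    apply Units.ext
    exact Cfsg.Agent.H199.PslGraphField.eq_pow hq hσ _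
  have hqo : Odd q := by
    rw [hq, Nat.odd_pow_iff (by norm_num)] at hF
    exact hF
  obtain ⟨k, hk⟩ := hqo
  rw [FiniteField.unit_isSquare_iff (ringChar_ne_two hF)]
  have h2 : Fintype.card F / 2 = (q + 1) * k := by
    rw [hq, hk]
    have : (2 * k + 1) ^ 2 = 2 * ((2 * k + 1 + 1) * k) + 1 := by ring
    rw [this]
    omega
  rw [h1] at hc h
  rw [h2, pow_mul, pow_succ', h, ← pow_mul]
  have h3 : c ^ (2 * k) * c = c := by
    rw [← pow_succ, ← hk, hc]
  exact mul_eq_right.1 h3

theorem form_two (y : MulAut (ProjectiveSpecialLinearGroup (Fin 2) F)) :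
    ∃ (g : GL (Fin 2) F) (σ : F ≃+* F), y = Psi 2 F g * phi 2 F σ := by
  rcases exists_form (le_refl 2) y with h | ⟨h, -⟩
  · exact h
  · omega

/-- an involution with non-trivial field part has square determinant -/
theorem det_sq (hF : Odd (Fintype.card F)) {g : GL (Fin 2) F} {σ : F ≃+* F} (hσ : σ ≠ 1)
    (h : Psi 2 F g * phi 2 F σ * (Psi 2 F g * phi 2 F σ) = 1) : IsSquare (Matrix.GeneralLinearGroup.det g) := by
  rw [sq_eq] at h
  obtain ⟨⟨c, hc⟩, hσ2⟩ := Psi_phi_eq (le_refl 2) (τ := 1) (h.trans (map_one _).symm)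
  have hcc := fixed_of_sq two_pos hc hσ2
  have ho : orderOf σ = 2 := orderOf_eq_prime (by rw [pow_two, hσ2]) hσ
  obtain ⟨K, -, hK⟩ := Cfsg.Agent.H199.PslField.card_fix σ
  rw [ho, Nat.card_eq_fintype_card (α := F)] at hK
  have h1 := congrArg Matrix.GeneralLinearGroup.det hc
  rw [map_mul, det_mapGL, Cfsg.Agent.H199.PslField.det_scal] at h1
  exact sq_of_norm hK.symm hF ho (Units.ext hcc) h1

end fin

section row

variable {F : Type} [Field F] [Fintype F]

/-- two automorphisms with the same field part and the same determinant class differ by an inner one -/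
theorem eq_of_class {D : Subgroup (MulAut (ProjectiveSpecialLinearGroup (Fin 2) F))}
    (hD : ∀ y ∈ D, y ∈ (MulAut.conj : ProjectiveSpecialLinearGroup (Fin 2) F →* _).range → y = 1)
    {g g' : GL (Fin 2) F} {σ : F ≃+* F} (hy : Psi 2 F g * phi 2 F σ ∈ D) (hy' : Psi 2 F g' * phi 2 F σ ∈ D)
    (h : IsSquare (Matrix.GeneralLinearGroup.det (g * g'⁻¹))) :
    Psi 2 F g * phi 2 F σ = Psi 2 F g' * phi 2 F σ := by
  have h1 : Psi 2 F g * phi 2 F σ * (Psi 2 F g' * phi 2 F σ)⁻¹ = Psi 2 F (g * g'⁻¹) := by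
    rw [map_mul, map_inv]
    group
  have h2 := hD _ (mul_mem hy (inv_mem hy')) (by rw [h1]; exact inner_of_sq h)
  exact mul_inv_eq_one.1 h2

theorem sq_div {F : Type} [Field F] [Fintype F] (hF : Odd (Fintype.card F)) {a b : Fˣ} (h : IsSquare a ↔ IsSquare b) :
    IsSquare (a * b⁻¹) := by
  have h0 := ringChar_ne_two hF
  by_cases ha : IsSquare a
  · exact ha.mul (h.1 ha).inv
  · have hb := fun hb => ha (h.2 hb)
    have key : ∀ a : Fˣ, ¬ IsSquare a → a ^ (Fintype.card F / 2) = -1 := by
      intro a ha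
      have h1 := FiniteField.pow_dichotomy h0 a.ne_zero
      rcases h1 with h1 | h1
      · exact absurd ((FiniteField.unit_isSquare_iff h0 a).2 (Units.ext h1)) ha
      · exact Units.ext h1
    rw [FiniteField.unit_isSquare_iff h0, mul_pow, inv_pow, key a ha, key b hb]
    simp

theorem card_le_two (hF : Odd (Fintype.card F)) {D : Subgroup (MulAut (ProjectiveSpecialLinearGroup (Fin 2) F))}
    (hD : ∀ y ∈ D, y ∈ (MulAut.conj : ProjectiveSpecialLinearGroup (Fin 2) F →* _).range → y = 1) :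
    Nat.card D ≤ 2 * Nat.card (F ≃+* F) := by
  classical
  have hfin : Finite (F ≃+* F) := DFunLike.finite _
  choose g σ h using fun y : D => form_two (y : MulAut (ProjectiveSpecialLinearGroup (Fin 2) F))
  have h1 : Nat.card D ≤ Nat.card (Bool × (F ≃+* F)) := by
    refine Nat.card_le_card_of_injective
      (fun y => (decide (IsSquare (Matrix.GeneralLinearGroup.det (g y))), σ y)) fun y y' hyy => ?_
    have e1 : decide (IsSquare (Matrix.GeneralLinearGroup.det (g y))) =
      decide (IsSquare (Matrix.GeneralLinearGroup.det (g y'))) := congrArg Prod.fst hyy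
    have e2 : σ y = σ y' := congrArg Prod.snd hyy
    apply Subtype.ext
    have hy' := h y'
    rw [← e2] at hy'
    rw [h y, hy']
    apply eq_of_class hD
    · rw [← h y]; exact y.2
    · rw [← hy']; exact y'.2
    · rw [map_mul, map_inv]
      exact sq_div hF (by simpa using e1)
  rwa [Nat.card_prod, Nat.card_eq_fintype_card (α := Bool), Fintype.card_bool] at h1

theorem le_index_two (hF : Odd (Fintype.card F)) {Q : Subgroup (ProjectiveSpecialLinearGroup (Fin 2) F)}
    (hQ : IsPGroup 2 Q) : Fintype.card F ≤ Q.index := by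
  let α : F →+ (Fin 2 → F) :=
    { toFun := fun w => Pi.single 0 w
      map_zero' := by simp
      map_add' := fun v w => Pi.single_add _ _ _ }
  have hα : Function.Injective α := Pi.single_injective (M := fun _ : Fin 2 => F) 0
  obtain ⟨U, hU⟩ := exists_U (W := F) α hα (l := Pi.single 1 1) (by simp) (by
    intro w
    simp [α])
  rw [← Nat.card_eq_fintype_card, ← hU]
  exact index_ge hQ U (by rw [hU, Nat.card_eq_fintype_card]; exact hF)

theorem pow_bound_three : ∀ f : ℕ, 3 ≤ f → 6 * f < 3 ^ f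
  | 0, h => by omega
  | 1, h => by omega
  | 2, h => by omega
  | 3, _ => by norm_num
  | f + 4, _ => by
    have := pow_bound_three (f + 3) (by omega)
    rw [pow_succ]
    omega

/-- **The row `PSL_2(F)`, `|F| ≥ 5` odd, of S5761 at `p = 2`.** -/
theorem row3_PSL_two (hF : Odd (Fintype.card F)) (h4 : 4 ≤ Fintype.card F)
    [hsim : IsSimpleGroup (ProjectiveSpecialLinearGroup (Fin 2) F)]
    (hT : ¬ IsMulCommutative (ProjectiveSpecialLinearGroup (Fin 2) F)) :
    Row3 2 (ProjectiveSpecialLinearGroup (Fin 2) F) := by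
  classical
  obtain ⟨p, f, hp, hf1, hpf⟩ : ∃ p f : ℕ, p.Prime ∧ 1 ≤ f ∧ Fintype.card F = p ^ f := by
    obtain ⟨p, hch⟩ := CharP.exists F
    obtain ⟨f, hp, hf⟩ := FiniteField.card F p
    exact ⟨p, f, hp, f.pos, hf⟩
  have hpF : Fact p.Prime := ⟨hp⟩
  have hgal : Nat.card (F ≃+* F) = f := Cfsg.Agent.Lib.FieldAutCard.card_ringAut hf1 hpf
  have hp3 : 3 ≤ p := by
    have h2 := hp.two_le
    have h3 : p ≠ 2 := by
      rintro rfl
      rw [hpf, Nat.odd_pow_iff (by omega)] at hF
      exact absurd hF (by decide)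
    omega
  intro P hP
  obtain ⟨x, hD⟩ := exists_of_meetIn hT (Cfsg.Agent.H597.MeetZ.meet2_PSL2 hF h4) hP
  have hidx := le_index_two hF (inn_pgroup hT hP)
  have hcard := card_le_two hF hD
  rw [hgal] at hcard
  -- at most one involution
  have hone : ∀ y ∈ DD P x, ∀ y' ∈ DD P x, y * y = 1 → y' * y' = 1 → y ≠ 1 → y' ≠ 1 → y = y' := by
    have hns : ∀ g : GL (Fin 2) F, Psi 2 F g ∈ DD P x → Psi 2 F g ≠ 1 →
        ¬ IsSquare (Matrix.GeneralLinearGroup.det g) := fun g hg hg1 hs => hg1 (hD _ hg (inner_of_sq hs))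
    have mixed : ∀ (g g' : GL (Fin 2) F) (σ : F ≃+* F), σ ≠ 1 → Psi 2 F g ∈ DD P x → Psi 2 F g ≠ 1 →
        Psi 2 F g' * phi 2 F σ ∈ DD P x →
        Psi 2 F g' * phi 2 F σ * (Psi 2 F g' * phi 2 F σ) = 1 → False := by
      intro g g' σ hσ hg hg1 hg' hgg'
      have h1 := det_sq hF hσ hgg'
      have h2 := hns g hg hg1
      have hσ2 : σ * σ = 1 := by
        rw [sq_eq] at hgg'
        exact (Psi_phi_eq (le_refl 2) (τ := 1) (hgg'.trans (map_one _).symm)).2
      have ho : orderOf σ = 2 := orderOf_eq_prime (by rw [pow_two, hσ2]) hσ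
      obtain ⟨K, -, hK⟩ := Cfsg.Agent.H199.PslField.card_fix σ
      rw [ho, Nat.card_eq_fintype_card (α := F)] at hK
      have e : Psi 2 F g * (Psi 2 F g' * phi 2 F σ) = Psi 2 F (g * g') * phi 2 F σ := by
        rw [map_mul, mul_assoc]
      have hz : Psi 2 F (g * g') * phi 2 F σ ∈ DD P x := by
        rw [← e]; exact mul_mem hg hg'
      have hz1 : Psi 2 F (g * g') * phi 2 F σ * (Psi 2 F (g * g') * phi 2 F σ) = 1 := by
        apply hD _ (mul_mem hz hz)
        rw [sq_eq, hσ2, map_one, mul_one]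
        apply inner_of_sq
        rw [map_mul, det_mapGL]
        exact norm_sq hK.symm hF ho _
      have h3 := det_sq hF hσ hz1
      apply h2
      have h4 : Matrix.GeneralLinearGroup.det g = Matrix.GeneralLinearGroup.det (g * g') *
          (Matrix.GeneralLinearGroup.det g')⁻¹ := by
        rw [map_mul, mul_inv_cancel_right]
      rw [h4]
      exact h3.mul h1.inv
    intro y hy y' hy' hyy hyy' hy1 hy1'
    obtain ⟨g, σ, rfl⟩ := form_two y
    obtain ⟨g', σ', rfl⟩ := form_two y'
    by_cases hσ : σ = 1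
    · subst hσ
      rw [map_one, mul_one] at hy hyy hy1 ⊢
      by_cases hσ' : σ' = 1
      · subst hσ'
        rw [map_one, mul_one] at hy' hyy' hy1' ⊢
        have h1 := hns g hy hy1
        have h2 := hns g' hy' hy1'
        have := eq_of_class (σ := 1) hD (g := g) (g' := g') (by rwa [map_one, mul_one]) (by rwa [map_one, mul_one]) (by
          rw [map_mul, map_inv]
          exact sq_div hF ⟨fun h => absurd h h1, fun h => absurd h h2⟩)
        rwa [map_one, mul_one, mul_one] at this
      · exact (mixed g g' σ' hσ' hy hy1 hy' hyy').elim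
    · by_cases hσ' : σ' = 1
      · subst hσ'
        rw [map_one, mul_one] at hy' hyy' hy1'
        exact (mixed g' g σ hσ hy' hy1' hy hyy).elim
      · have hs1 : σ * σ = 1 := by
          rw [sq_eq] at hyy
          exact (Psi_phi_eq (le_refl 2) (τ := 1) (hyy.trans (map_one _).symm)).2
        have hs2 : σ' * σ' = 1 := by
          rw [sq_eq] at hyy'
          exact (Psi_phi_eq (le_refl 2) (τ := 1) (hyy'.trans (map_one _).symm)).2
        have hst : σ = σ' := Cfsg.Agent.H199.PslGraphField.involution_unique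
          (orderOf_eq_prime (by rw [pow_two, hs1]) hσ) (orderOf_eq_prime (by rw [pow_two, hs2]) hσ')
        subst hst
        apply eq_of_class hD hy hy'
        rw [map_mul, map_inv]
        exact (det_sq hF hσ hyy).mul (det_sq hF hσ hyy').inv
  by_cases hc : Nat.card (DD P x) ≤ 4
  · exact g3_of_four hT hP x hone hc
  · apply g3_of_one hT hP x hone
    have h1 := pow_bound_three f (by omega)
    have h2 : 3 ^ f ≤ Fintype.card F := by
      rw [hpf]
      exact Nat.pow_le_pow_left hp3 f
    omega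

/-- **The row `PSL_n(F)`, `|F|` odd, of S5761 at `p = 2`** (field `psl_odd` of `H233.B3.Rows2`, without `MeetIn`). -/
theorem row2_PSL_odd {n : ℕ} (hn : 2 ≤ n) (h2 : n = 2 → 4 ≤ Fintype.card F) (hF : Odd (Fintype.card F)) :
    Row3 2 (ProjectiveSpecialLinearGroup (Fin n) F) := by
  rcases Nat.lt_or_ge n 3 with h3 | h3
  · obtain rfl : n = 2 := by omega
    have h4 := h2 rfl
    have hs : IsSimpleGroup (ProjectiveSpecialLinearGroup (Fin 2) F) :=
      Matrix.ProjectiveSpecialLinearGroup.rank_two_simple (by rwa [Nat.card_eq_fintype_card])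
    refine row3_PSL_two hF h4 fun hc => ?_
    exact Cfsg.Agent.ClassicalGeometry.PSL2Solvable.not_isSolvable_psl F h4
      (Group.isSolvable_of_comm fun a b => hc.is_comm.comm a b)
  · exact row3_PSL_three h3 hF

end row

end Cfsg.Agent.H750.R3
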